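import Cfsg.Agent.Alperin.Induction
import Cfsg.Prelude.Def_HallClasses
import Cfsg.Prelude.Def_OddOrderLocal
import Mathlib.GroupTheory.SchurZassenhaus

/-!
A subgroup `H` dominating all `π`-subgroups of a finite `π`-homogeneous group controls the fusion of its
elements. For `p ∈ π` this is Alperin's induction: the automorphisms that `N(U)` induces on a `p`-subgroup `U`
are induced by a `π`-subgroup having a `p`-subgroup larger than `U`; then split off `p`-parts of elements.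
-/

set_option autoImplicit false
set_option linter.style.haveILetI false

universe u

namespace CfsgLib.PiHomog

open Cfsg CfsgLib.Alperin

variable {G : Type u} [Group G] {π : Set ℕ}

/-- `H` is a `π`-subgroup containing a conjugate of each `π`-subgroup. -/
def Dominates (π : Set ℕ) (H : Subgroup G) : Prop :=
  IsPiSubgroup π H ∧ ∀ T : Subgroup G, IsPiSubgroup π T → ∃ g : G, T.map (MulAut.conj g).toMonoidHom ≤ H

/-- `π'`-elements normalizing a nontrivial `π`-subgroup centralize it. -/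
def Homogeneous (π : Set ℕ) (G : Type u) [Group G] : Prop :=
  ∀ U : Subgroup G, U ≠ ⊥ → IsPiSubgroup π U → ∀ n ∈ Subgroup.normalizer (U : Set G),
    (∀ q : ℕ, q.Prime → q ∣ orderOf n → q ∉ π) → n ∈ Subgroup.centralizer (U : Set G)

/-- Conjugation by `g` agrees on `U` with conjugation by an element of `H`. -/
def Good (H U : Subgroup G) (g : G) : Prop :=
  ∃ h ∈ H, ∀ u ∈ U, h * u * h⁻¹ = g * u * g⁻¹

theorem good_mono {H U V : Subgroup G} {g : G} (hle : U ≤ V) (h : Good H V g) : Good H U g := by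
  obtain ⟨a, ha, hag⟩ := h
  exact ⟨a, ha, fun u hu => hag u (hle hu)⟩

theorem good_comp {H U : Subgroup G} {g k : G} (h1 : Good H U g)
    (h2 : Good H (U.map (MulAut.conj g).toMonoidHom) k) : Good H U (k * g) := by
  obtain ⟨a, ha, hag⟩ := h1
  obtain ⟨b, hb, hbk⟩ := h2
  refine ⟨b * a, H.mul_mem hb ha, fun u hu => ?_⟩
  calc b * a * u * (b * a)⁻¹ = b * (a * u * a⁻¹) * b⁻¹ := by group
    _ = b * (g * u * g⁻¹) * b⁻¹ := by rw [hag u hu]
    _ = k * (g * u * g⁻¹) * k⁻¹ := hbk _ (conj_mem_conj_map g hu)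
    _ = k * g * u * (k * g)⁻¹ := by group

theorem good_of_mem_centralizer (H : Subgroup G) {U : Subgroup G} {c : G}
    (hc : c ∈ Subgroup.centralizer (U : Set G)) : Good H U c := by
  refine ⟨1, H.one_mem, fun u hu => ?_⟩
  rw [← Subgroup.mem_centralizer_iff.1 hc u hu]
  group

theorem isPi_conj_map {T : Subgroup G} (hT : IsPiSubgroup π T) (g : G) :
    IsPiSubgroup π (T.map (MulAut.conj g).toMonoidHom) := fun q hq hd =>
  hT q hq (by rwa [card_conj_map] at hd)

theorem isPi_of_isPGroup [Finite G] {p : ℕ} (hp : p.Prime) (hpπ : p ∈ π) {T : Subgroup G}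
    (hT : IsPGroup p T) : IsPiSubgroup π T := by
  intro q hq hd
  haveI := Fact.mk hp
  obtain ⟨k, hk⟩ := hT.exists_card_eq
  rw [hk] at hd
  rwa [(Nat.prime_dvd_prime_iff_eq hq hp).1 (hq.dvd_of_dvd_pow hd)]

/-- The join with a normalized `π`-subgroup is a `π`-subgroup. -/
theorem isPi_sup [Finite G] {W U : Subgroup G} (hW : IsPiSubgroup π W) (hU : IsPiSubgroup π U)
    (hnorm : W ≤ Subgroup.normalizer (U : Set G)) : IsPiSubgroup π (W ⊔ U) := by
  intro q hq hd
  haveI := Fact.mk hq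
  obtain ⟨x, hx⟩ := exists_prime_orderOf_dvd_card' q hd
  have hxm : (x : G) ∈ (↑(W ⊔ U) : Set G) := x.2
  rw [Subgroup.coe_mul_of_left_le_normalizer_right W U hnorm] at hxm
  obtain ⟨w, hw, u, hu, hwu⟩ := Set.mem_mul.1 hxm
  have hpow : ∀ k : ℕ, ∃ u' ∈ U, (w * u) ^ k = w ^ k * u' := by
    intro k
    induction k with
    | zero => exact ⟨1, U.one_mem, by simp⟩
    | succ k ih =>
      obtain ⟨u', hu', he⟩ := ih
      refine ⟨w⁻¹ * u' * w * u, U.mul_mem ?_ hu, ?_⟩
      · have h1 := (Subgroup.mem_normalizer_iff.1 (Subgroup.inv_mem _ (hnorm hw)) u').1 hu'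
        simpa using h1
      · rw [pow_succ, he, pow_succ]
        group
  obtain ⟨u', hu', he⟩ := hpow (orderOf w)
  rw [pow_orderOf_eq_one, one_mul] at he
  have h2 : (x : G) ^ (orderOf w * Nat.card U) = 1 := by
    rw [← hwu, pow_mul, he]
    exact orderOf_dvd_iff_pow_eq_one.1 (Subgroup.orderOf_dvd_natCard U hu')
  have h3 : q ∣ orderOf w * Nat.card U := by
    rw [← hx, ← Subgroup.orderOf_coe x]
    exact orderOf_dvd_of_pow_eq_one h2
  rcases hq.dvd_mul.1 h3 with h | h
  · exact hW q hq (h.trans (Subgroup.orderOf_dvd_natCard W hw))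
  · exact hU q hq h

/-- The automorphisms induced on a nontrivial `π`-subgroup by its normalizer are induced by a `π`-subgroup. -/
theorem exists_pi_supplement [Finite G] (hom : Homogeneous π G) {U : Subgroup G} (hUne : U ≠ ⊥)
    (hU : IsPiSubgroup π U) :
    ∃ W : Subgroup G, IsPiSubgroup π W ∧ U ≤ W ∧ W ≤ Subgroup.normalizer (U : Set G) ∧
      ∀ n ∈ Subgroup.normalizer (U : Set G), ∃ w ∈ W, w⁻¹ * n ∈ Subgroup.centralizer (U : Set G) := by
  set N := Subgroup.normalizer (U : Set G) with hN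
  set C := Subgroup.centralizer (U : Set G) with hC
  let P : Set (Subgroup G) := {W | W ≤ N ∧ ∀ n ∈ N, ∃ w ∈ W, w⁻¹ * n ∈ C}
  obtain ⟨W, ⟨hWN, hWsup⟩, hmin⟩ := wellFounded_lt.has_min P
    ⟨N, le_rfl, fun n hn => ⟨n, hn, by simp⟩⟩
  have hCn : (C.subgroupOf W).Normal := by
    constructor
    intro c hc w
    show (w : G) * (c : G) * (w : G)⁻¹ ∈ C
    rw [hC, Subgroup.mem_centralizer_iff]
    intro v hv
    have h1 := Subgroup.mem_centralizer_iff.1 (Subgroup.mem_subgroupOf.1 hc) _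
      ((Subgroup.mem_normalizer_iff.1 (Subgroup.inv_mem _ (hWN w.2)) v).1 hv)
    calc v * ((w : G) * c * (w : G)⁻¹)
        = (w : G) * ((w : G)⁻¹ * v * (w : G)⁻¹⁻¹ * c) * (w : G)⁻¹ := by group
      _ = (w : G) * (c * ((w : G)⁻¹ * v * (w : G)⁻¹⁻¹)) * (w : G)⁻¹ := by rw [h1]
      _ = (w : G) * c * (w : G)⁻¹ * v := by group
  have hgen : ∀ K : Subgroup ↥W, K ⊔ C.subgroupOf W = ⊤ → K = ⊤ := by
    intro K hK
    by_contra hne
    have hlt : K.map W.subtype < W := by
      refine lt_of_le_of_ne (Subgroup.map_subtype_le K) fun he => hne ?_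
      refine Subgroup.map_injective W.subtype_injective ?_
      rw [he, ← MonoidHom.range_eq_map, Subgroup.range_subtype]
    refine hmin (K.map W.subtype) ⟨hlt.le.trans hWN, fun n hn => ?_⟩ hlt
    obtain ⟨w, hw, hwc⟩ := hWsup n hn
    have hwm : (⟨w, hw⟩ : ↥W) ∈ K ⊔ C.subgroupOf W := by rw [hK]; exact Subgroup.mem_top _
    obtain ⟨k, hk, c, hc, hkc⟩ := Subgroup.mem_sup_of_normal_right.1 hwm
    refine ⟨(k : G), ⟨k, hk, rfl⟩, ?_⟩
    have h2 : (k : G) * (c : G) = w := by rw [← Subgroup.coe_mul, hkc]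
    have h3 : (k : G)⁻¹ * n = (c : G) * (w⁻¹ * n) := by rw [← h2]; group
    rw [h3]
    exact C.mul_mem (Subgroup.mem_subgroupOf.1 hc) hwc
  have hWπ : IsPiSubgroup π W := by
    intro q hq hd
    by_contra hqπ
    haveI := Fact.mk hq
    haveI := hCn
    obtain ⟨Q⟩ : Nonempty (Sylow q ↥W) := inferInstance
    have hQC : (Q : Subgroup ↥W) ≤ C.subgroupOf W := by
      intro y hy
      refine Subgroup.mem_subgroupOf.2 (hom U hUne hU y (hWN y.2) fun r hr hrd => ?_)
      obtain ⟨k, hk⟩ := IsPGroup.iff_orderOf.1 Q.2 ⟨y, hy⟩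
      rw [← Subgroup.orderOf_coe] at hk
      rw [Subgroup.orderOf_coe, hk] at hrd
      rwa [(Nat.prime_dvd_prime_iff_eq hr hq).1 (hr.dvd_of_dvd_pow hrd)]
    have h1 := hgen _ (Sylow.normalizer_sup_eq_top' Q hQC)
    haveI : (Q : Subgroup ↥W).Normal := Subgroup.normalizer_eq_top_iff.1 h1
    obtain ⟨K, hK⟩ := Subgroup.exists_right_complement'_of_coprime (N := (Q : Subgroup ↥W))
      Q.card_coprime_index
    have h2 := hK.sup_eq_top
    have h3 : K = ⊤ := hgen K (top_le_iff.1 (h2.ge.trans (sup_le (hQC.trans le_sup_right) le_sup_left)))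
    have h4 := hK.card_mul
    rw [h3, Subgroup.card_top] at h4
    have h5 : Nat.card (Q : Subgroup ↥W) = 1 :=
      Nat.eq_of_mul_eq_mul_right Nat.card_pos (by rw [h4, one_mul])
    have h6 := Q.dvd_card_of_dvd_card hd
    rw [h5] at h6
    exact hq.ne_one (Nat.dvd_one.1 h6)
  refine ⟨W ⊔ U, isPi_sup hWπ hU hWN, le_sup_right, sup_le hWN Subgroup.le_normalizer, fun n hn => ?_⟩
  obtain ⟨w, hw, hwc⟩ := hWsup n hn
  exact ⟨w, Subgroup.mem_sup_left hw, hwc⟩

/-- A supplement of the centralizer that can be moved into `H` without changing it makes `N(U)` good. -/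
theorem good_normalizer_of_supplement {H U W : Subgroup G}
    (hsupp : ∀ n ∈ Subgroup.normalizer (U : Set G), ∃ w ∈ W, w⁻¹ * n ∈ Subgroup.centralizer (U : Set G))
    {y : G} (hy : y ∈ Subgroup.normalizer (U : Set G)) (hle : W.map (MulAut.conj y).toMonoidHom ≤ H) :
    ∀ m ∈ Subgroup.normalizer (U : Set G), Good H U m := by
  intro m hm
  obtain ⟨w, hw, hwc⟩ := hsupp (y⁻¹ * m * y)
    (Subgroup.mul_mem _ (Subgroup.mul_mem _ (Subgroup.inv_mem _ hy) hm) hy)
  refine ⟨y * w * y⁻¹, hle (conj_mem_conj_map y hw), fun u hu => ?_⟩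
  have hu' : y⁻¹ * u * y ∈ U := by
    simpa using (Subgroup.mem_normalizer_iff.1 (Subgroup.inv_mem _ hy) u).1 hu
  have h1 := Subgroup.mem_centralizer_iff.1 hwc _ hu'
  calc y * w * y⁻¹ * u * (y * w * y⁻¹)⁻¹
      = y * w * ((y⁻¹ * u * y) * (w⁻¹ * (y⁻¹ * m * y))) * (y⁻¹ * m * y)⁻¹ * y⁻¹ := by group
    _ = y * w * ((w⁻¹ * (y⁻¹ * m * y)) * (y⁻¹ * u * y)) * (y⁻¹ * m * y)⁻¹ * y⁻¹ := by rw [h1]
    _ = m * u * m⁻¹ := by group

theorem exists_sylow_le [Finite G] {H : Subgroup G} (hH : Dominates π H) {p : ℕ} [Fact p.Prime]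
    (hpπ : p ∈ π) : ∃ S : Sylow p G, (S : Subgroup G) ≤ H := by
  obtain ⟨P⟩ : Nonempty (Sylow p G) := inferInstance
  obtain ⟨g, hg⟩ := hH.2 (P : Subgroup G) (isPi_of_isPGroup Fact.out hpπ P.2)
  refine ⟨g • P, ?_⟩
  rw [Sylow.coe_subgroup_smul]
  exact hg

/-- Every fusion inside a Sylow `p`-subgroup contained in `H` is induced by `H`. -/
theorem good_sylow [Finite G] {H : Subgroup G} (hH : Dominates π H) (hom : Homogeneous π G) {p : ℕ}
    [Fact p.Prime] (hpπ : p ∈ π) (S : Sylow p G) (hS : (S : Subgroup G) ≤ H) :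
    ∀ (U : Subgroup G) (g : G), U ≤ (S : Subgroup G) →
      U.map (MulAut.conj g).toMonoidHom ≤ (S : Subgroup G) → Good H U g := by
  have hp : p.Prime := Fact.out
  have hSH : ¬ p ∣ (S : Subgroup G).relIndex H := fun h =>
    S.not_dvd_index (h.trans (Subgroup.relIndex_dvd_index_of_le hS))
  have hinto : ∀ A : Subgroup G, A ≤ H → IsPGroup p A →
      ∃ h ∈ H, A.map (MulAut.conj h).toMonoidHom ≤ (S : Subgroup G) :=
    fun A hAH hA => exists_mem_conj_map_le hS S.2 hSH hAH hA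
  have hHn : ∀ {h : G}, h ∈ H → H.map (MulAut.conj h).toMonoidHom = H := fun hh =>
    conj_map_eq_of_mem_normalizer (Subgroup.le_normalizer hh)
  -- a supplement can be moved into `H` so that a given `p`-subgroup of it lands in `S`
  have hmove : ∀ W R : Subgroup G, IsPiSubgroup π W → R ≤ W → IsPGroup p R →
      ∃ y : G, W.map (MulAut.conj y).toMonoidHom ≤ H ∧
        R.map (MulAut.conj y).toMonoidHom ≤ (S : Subgroup G) := by
    intro W R hW hRW hR
    obtain ⟨x, hx⟩ := hH.2 W hW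
    obtain ⟨h, hh, hle⟩ := hinto _ ((Subgroup.map_mono hRW).trans hx) (hR.map _)
    refine ⟨h * x, ?_, by rwa [← conj_map_map]⟩
    rw [← conj_map_map]
    exact (Subgroup.map_mono hx).trans (hHn hh).le
  refine fusion_induction S (Good H) (fun _ _ _ hle _ _ h => good_mono hle h)
    (fun _ _ _ _ _ _ h1 h2 => good_comp h1 h2) ?_ ?_
  · intro n hn
    by_cases hb : (S : Subgroup G) = ⊥
    · refine good_of_mem_centralizer H (Subgroup.mem_centralizer_iff.2 fun v hv => ?_)
      rw [SetLike.mem_coe, hb, Subgroup.mem_bot] at hv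
      simp [hv]
    obtain ⟨W, hWπ, hSW, -, hsupp⟩ := exists_pi_supplement hom hb (isPi_of_isPGroup hp hpπ S.2)
    obtain ⟨y, hyH, hyS⟩ := hmove W _ hWπ hSW S.2
    exact good_normalizer_of_supplement hsupp (mem_normalizer_of_le_conj hyS) hyH n hn
  intro V hVlt IH
  obtain ⟨g, hgS, -, hFN⟩ := exists_conj_fullyNormalized S hVlt.le
  refine ⟨_, hgS, ⟨g, rfl⟩, hFN, ?_⟩
  set U := V.map (MulAut.conj g).toMonoidHom with hU
  set N := Subgroup.normalizer (U : Set G) with hN
  set C := Subgroup.centralizer (U : Set G) with hC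
  have hUlt : U < (S : Subgroup G) := lt_of_le_of_ne hgS fun he => hVlt.ne
    (Subgroup.eq_of_le_of_card_ge hVlt.le (by rw [← he, hU, card_conj_map]))
  have IH' : ∀ (K : Subgroup G) (k : G), Nat.card U < Nat.card K → K ≤ (S : Subgroup G) →
      K.map (MulAut.conj k).toMonoidHom ≤ (S : Subgroup G) → Good H K k :=
    fun K k hc => IH K k (by rwa [hU, card_conj_map] at hc)
  intro n hn
  by_cases hbot : U = ⊥
  · refine good_of_mem_centralizer H (Subgroup.mem_centralizer_iff.2 fun v hv => ?_)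
    rw [SetLike.mem_coe, hbot, Subgroup.mem_bot] at hv
    simp [hv]
  have hCN : C ≤ N := Subgroup.centralizer_le_normalizer _
  haveI hCn : (C.subgroupOf N).Normal := by
    constructor
    intro c hc w
    show (w : G) * (c : G) * (w : G)⁻¹ ∈ C
    rw [hC, Subgroup.mem_centralizer_iff]
    intro v hv
    have h1 := Subgroup.mem_centralizer_iff.1 (Subgroup.mem_subgroupOf.1 hc) _
      ((Subgroup.mem_normalizer_iff.1 (Subgroup.inv_mem _ w.2) v).1 hv)
    calc v * ((w : G) * c * (w : G)⁻¹)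
        = (w : G) * ((w : G)⁻¹ * v * (w : G)⁻¹⁻¹ * c) * (w : G)⁻¹ := by group
      _ = (w : G) * (c * ((w : G)⁻¹ * v * (w : G)⁻¹⁻¹)) * (w : G)⁻¹ := by rw [h1]
      _ = (w : G) * c * (w : G)⁻¹ * v := by group
  by_cases hSC : (S : Subgroup G) ⊓ C ≤ U
  · -- `N_S(U)` is no larger than a Sylow subgroup of a `π`-supplement
    obtain ⟨W, hWπ, hUW, hWN, hsupp⟩ := exists_pi_supplement hom hbot
      (isPi_of_isPGroup hp hpπ (S.2.to_le hgS))
    set R := (S : Subgroup G) ⊓ N with hR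
    have hRN : R ≤ N := inf_le_right
    have hUR : U < R := lt_inf_normalizer S.2 hUlt
    have hcardX : ∀ X : Subgroup G,
        Nat.card X = Nat.card (C ⊓ X : Subgroup G) * C.relIndex X := by
      intro X
      rw [← Subgroup.card_mul_index (C.subgroupOf X), ← Subgroup.relIndex]
      congr 1
      rw [← Subgroup.card_map_of_injective X.subtype_injective, Subgroup.subgroupOf_map_subtype]
    have htop : W.subgroupOf N ⊔ C.subgroupOf N = ⊤ := by
      rw [eq_top_iff]
      intro a _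
      obtain ⟨w, hw, hwc⟩ := hsupp a a.2
      have h1 : (⟨w, hWN hw⟩ : ↥N) * ⟨w⁻¹ * a, hCN hwc⟩ = a := by
        apply Subtype.ext
        simp
      rw [← h1]
      exact Subgroup.mul_mem_sup (show (⟨w, hWN hw⟩ : ↥N) ∈ W.subgroupOf N from hw)
        (show (⟨w⁻¹ * a, hCN hwc⟩ : ↥N) ∈ C.subgroupOf N from hwc)
    have hdvd : Nat.card R ∣ Nat.card W := by
      rw [hcardX R, hcardX W]
      refine Nat.mul_dvd_mul (Subgroup.card_dvd_of_le ?_) ?_
      · refine le_inf inf_le_left ?_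
        refine le_trans ?_ hUW
        exact le_trans (le_inf (inf_le_right.trans inf_le_left) inf_le_left) hSC
      · rw [← Subgroup.relIndex_subgroupOf hRN, ← Subgroup.relIndex_subgroupOf hWN]
        refine (Subgroup.relIndex_dvd_index_of_normal _ _).trans (dvd_of_eq ?_)
        rw [← Subgroup.relIndex_top_right, ← htop, Subgroup.relIndex_sup_right]
    obtain ⟨P, hP⟩ := ((S.2.to_le hgS).of_equiv (Subgroup.subgroupOfEquivOfLe hUW).symm :
      IsPGroup p ↥(U.subgroupOf W)).exists_le_sylow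
    set R0 := (P : Subgroup ↥W).map W.subtype with hR0
    have hR0W : R0 ≤ W := Subgroup.map_subtype_le _
    have hUR0 : U ≤ R0 := fun v hv => ⟨⟨v, hUW hv⟩, hP (show (⟨v, hUW hv⟩ : ↥W) ∈ U.subgroupOf W from hv), rfl⟩
    have hcR0 : Nat.card R ≤ Nat.card R0 := by
      obtain ⟨k, hk⟩ := ((S.2.to_le inf_le_left : IsPGroup p ↥R)).exists_card_eq
      rw [hR0, Subgroup.card_map_of_injective W.subtype_injective, P.card_eq_multiplicity, hk]
      rw [hk] at hdvd
      exact Nat.pow_le_pow_right hp.pos ((hp.pow_dvd_iff_le_factorization Nat.card_pos.ne').1 hdvd)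
    obtain ⟨a, ha, haR⟩ := exists_mem_normalizer_conj_le S hFN (A := R0) (hR0W.trans hWN) (P.2.map _)
    set R1 := R0.map (MulAut.conj a).toMonoidHom with hR1
    set W1 := W.map (MulAut.conj a).toMonoidHom with hW1
    have hUR1 : U ≤ R1 := (conj_map_eq_of_mem_normalizer ha).ge.trans (Subgroup.map_mono hUR0)
    have hc1 : Nat.card U < Nat.card R1 := by
      refine lt_of_lt_of_le ?_ (hcR0.trans (card_conj_map R0 a).ge)
      refine lt_of_le_of_ne (Subgroup.card_le_of_le hUR.le) fun he => ?_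
      exact hUR.ne (Subgroup.eq_of_le_of_card_ge hUR.le he.ge)
    have hsupp1 : ∀ m ∈ N, ∃ w ∈ W1, w⁻¹ * m ∈ C := by
      intro m hm
      obtain ⟨w, hw, hwc⟩ := hsupp (a⁻¹ * m * a)
        (N.mul_mem (N.mul_mem (N.inv_mem ha) hm) ha)
      refine ⟨a * w * a⁻¹, conj_mem_conj_map a hw, ?_⟩
      have h1 : (a * w * a⁻¹)⁻¹ * m = a * (w⁻¹ * (a⁻¹ * m * a)) * a⁻¹ := by group
      rw [h1]
      exact Subgroup.mem_subgroupOf.1 (hCn.conj_mem ⟨_, hCN hwc⟩ hwc ⟨a, ha⟩)
    obtain ⟨y, hyH, hyS⟩ := hmove W1 R1 (isPi_conj_map hWπ a) (Subgroup.map_mono hR0W) ((P.2.map _).map _)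
    obtain ⟨h, hh, hhy⟩ := IH' R1 y hc1 (haR.trans inf_le_left) hyS
    have hcC : h⁻¹ * y ∈ C := by
      rw [hC, Subgroup.mem_centralizer_iff]
      intro v hv
      calc v * (h⁻¹ * y) = h⁻¹ * (h * v * h⁻¹) * y := by group
        _ = h⁻¹ * (y * v * y⁻¹) * y := by rw [hhy v (hUR1 hv)]
        _ = h⁻¹ * y * v := by group
    refine good_normalizer_of_supplement hsupp1 (hCN hcC) ?_ n hn
    rw [← conj_map_map]
    exact (Subgroup.map_mono hyH).trans (hHn (H.inv_mem hh)).le
  · -- `C(U)` meets `S` outside `U`: Frattini argument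
    set Q := (S : Subgroup G) ⊓ C with hQ
    set D := U ⊔ Q with hD
    have hDS : D ≤ (S : Subgroup G) := sup_le hgS inf_le_left
    have hUD : U < D := lt_of_le_of_ne le_sup_left fun he => hSC (le_sup_right.trans he.ge)
    have hcD : Nat.card U < Nat.card D := by
      refine lt_of_le_of_ne (Subgroup.card_le_of_le hUD.le) fun he => ?_
      exact hUD.ne (Subgroup.eq_of_le_of_card_ge hUD.le he.ge)
    have hQC : ¬ p ∣ Q.relIndex C := by
      let R : Sylow p ↥N :=
        ((S.2.to_le inf_le_left : IsPGroup p ↥((S : Subgroup G) ⊓ N)).of_equiv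
          (Subgroup.subgroupOfEquivOfLe inf_le_right).symm :
          IsPGroup p ↥(((S : Subgroup G) ⊓ N).subgroupOf N)).toSylow hFN
      have heq : ((R : Subgroup ↥N) ⊓ C.subgroupOf N).relIndex (C.subgroupOf N) = Q.relIndex C := by
        show ((((S : Subgroup G) ⊓ N).subgroupOf N) ⊓ C.subgroupOf N).relIndex (C.subgroupOf N) = _
        rw [Subgroup.inf_relIndex_right, Subgroup.relIndex_subgroupOf hCN, hQ, Subgroup.inf_relIndex_right,
          ← Subgroup.inf_relIndex_right ((S : Subgroup G) ⊓ N), inf_assoc, inf_eq_right.2 hCN,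
          Subgroup.inf_relIndex_right]
      have hdv : (R : Subgroup ↥N).relIndex (C.subgroupOf N) ∣ (R : Subgroup ↥N).index := by
        set C' := C.subgroupOf N with hC'
        have e1 := Subgroup.relIndex_mul_relIndex ((R : Subgroup ↥N) ⊓ C') C' ((R : Subgroup ↥N) ⊔ C')
          inf_le_right le_sup_right
        have e2 := Subgroup.relIndex_mul_relIndex ((R : Subgroup ↥N) ⊓ C') (R : Subgroup ↥N) ((R : Subgroup ↥N) ⊔ C')
          inf_le_left le_sup_left
        rw [← e2, Subgroup.inf_relIndex_left, Subgroup.relIndex_sup_right, Subgroup.inf_relIndex_right] at e1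
        have hpos : C'.relIndex (R : Subgroup ↥N) ≠ 0 := Subgroup.index_ne_zero_of_finite
        rw [mul_left_cancel₀ hpos ((mul_comm _ _).trans e1)]
        exact Subgroup.relIndex_dvd_index_of_le le_sup_left
      intro hd
      rw [Subgroup.inf_relIndex_right] at heq
      exact R.not_dvd_index ((heq ▸ hd).trans hdv)
    obtain ⟨c, hc, hcle⟩ := exists_mem_conj_map_le (inf_le_right : Q ≤ C) (S.2.to_le inf_le_left) hQC
      (A := Q.map (MulAut.conj n).toMonoidHom)
      (by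
        rintro _ ⟨v, hv, rfl⟩
        exact Subgroup.mem_subgroupOf.1 (hCn.conj_mem ⟨v, hCN hv.2⟩ hv.2 ⟨n, hn⟩))
      ((S.2.to_le inf_le_left).map _)
    rw [conj_map_map] at hcle
    have hcn : c * n ∈ N := N.mul_mem (hCN hc) hn
    have hDn : D.map (MulAut.conj (c * n)).toMonoidHom ≤ (S : Subgroup G) := by
      rw [hD, Subgroup.map_sup, conj_map_eq_of_mem_normalizer hcn]
      exact sup_le hgS (hcle.trans inf_le_left)
    have h1 : Good H U (c * n) := good_mono hUD.le (IH' D (c * n) hcD hDS hDn)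
    have h2 : Good H (U.map (MulAut.conj (c * n)).toMonoidHom) c⁻¹ := by
      rw [conj_map_eq_of_mem_normalizer hcn]
      exact good_of_mem_centralizer H (C.inv_mem hc)
    have h3 := good_comp h1 h2
    rwa [inv_mul_cancel_left] at h3

/-- Fusion of `p`-subgroups of `H` is induced by `H`. -/
theorem good_pSubgroup [Finite G] {H : Subgroup G} (hH : Dominates π H) (hom : Homogeneous π G) {p : ℕ}
    [Fact p.Prime] (hpπ : p ∈ π) {U : Subgroup G} (hUp : IsPGroup p U) (hUH : U ≤ H) {g : G}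
    (hgU : U.map (MulAut.conj g).toMonoidHom ≤ H) : Good H U g := by
  obtain ⟨S, hS⟩ := exists_sylow_le hH hpπ
  have hSH : ¬ p ∣ (S : Subgroup G).relIndex H := fun h =>
    S.not_dvd_index (h.trans (Subgroup.relIndex_dvd_index_of_le hS))
  obtain ⟨a, ha, haS⟩ := exists_mem_conj_map_le hS S.2 hSH hUH hUp
  obtain ⟨b, hb, hbS⟩ := exists_mem_conj_map_le hS S.2 hSH hgU (hUp.map _)
  obtain ⟨c, hc, hcg⟩ := good_sylow hH hom hpπ S hS _ (b * g * a⁻¹) haS (by
    rw [conj_map_map, inv_mul_cancel_right, ← conj_map_map]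
    exact hbS)
  refine ⟨b⁻¹ * c * a, H.mul_mem (H.mul_mem (H.inv_mem hb) hc) ha, fun u hu => ?_⟩
  calc b⁻¹ * c * a * u * (b⁻¹ * c * a)⁻¹ = b⁻¹ * (c * (a * u * a⁻¹) * c⁻¹) * b := by group
    _ = b⁻¹ * (b * g * a⁻¹ * (a * u * a⁻¹) * (b * g * a⁻¹)⁻¹) * b := by
      rw [hcg _ (conj_mem_conj_map a hu)]
    _ = g * u * g⁻¹ := by group

theorem homogeneous_subgroup (hom : Homogeneous π G) (M : Subgroup G) : Homogeneous π ↥M := by
  intro U hUne hU n hn hq
  have h := hom (U.map M.subtype)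
    (fun he => hUne (Subgroup.map_injective M.subtype_injective (by rw [he, Subgroup.map_bot])))
    (fun q hq' hd => hU q hq' (by rwa [Subgroup.card_map_of_injective M.subtype_injective] at hd))
    (n : G) (Subgroup.le_normalizer_map M.subtype ⟨n, hn, rfl⟩)
    (fun q hq' hd => hq q hq' (by rwa [Subgroup.orderOf_coe] at hd))
  refine Subgroup.mem_centralizer_iff.2 fun v hv => Subtype.ext ?_
  exact Subgroup.mem_centralizer_iff.1 h _ ⟨v, hv, rfl⟩

/-- Elements of `H` conjugate in `G` are conjugate in `H`. -/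
theorem exists_mem_conj_eq {π : Set ℕ} : ∀ (n : ℕ) {G : Type u} [Group G] [Finite G] (H : Subgroup G),
    Dominates π H → Homogeneous π G → ∀ x ∈ H, orderOf x = n → ∀ g : G, g * x * g⁻¹ ∈ H →
      ∃ h ∈ H, h * x * h⁻¹ = g * x * g⁻¹ := by
  intro n
  induction n using Nat.strong_induction_on with
  | _ n ih =>
    intro G _ _ H hH hom x hx hxn g hgx
    by_cases h1 : n = 1
    · subst h1
      rw [orderOf_eq_one_iff.1 hxn]
      exact ⟨1, H.one_mem, by simp⟩
    obtain ⟨p, hp, hpn⟩ := Nat.exists_prime_and_dvd h1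
    haveI := Fact.mk hp
    have hnpos : n ≠ 0 := hxn ▸ (orderOf_pos x).ne'
    have hxH : orderOf x ∣ Nat.card H := Subgroup.orderOf_dvd_natCard H hx
    have hpπ : p ∈ π := hH.1 p hp ((hxn ▸ hpn).trans hxH)
    set e := n.factorization p with he
    set m := n / p ^ e with hm
    have hem : p ^ e * m = n := Nat.ordProj_mul_ordCompl_eq_self n p
    have hco : Nat.Coprime (p ^ e) m := ((Nat.coprime_ordCompl hp hnpos).pow_left _)
    have hbez : (p ^ e : ℤ) * Nat.gcdA (p ^ e) m + (m : ℤ) * Nat.gcdB (p ^ e) m = 1 := by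
      have h := Nat.gcd_eq_gcd_ab (p ^ e) m
      rw [hco] at h
      exact_mod_cast h.symm
    set a := x ^ ((m : ℤ) * Nat.gcdB (p ^ e) m) with ha
    set b := x ^ ((p ^ e : ℤ) * Nat.gcdA (p ^ e) m) with hb
    have hxn' : x ^ ((p ^ e : ℤ) * (m : ℤ)) = 1 := by
      rw [show ((p ^ e : ℤ) * (m : ℤ)) = ((n : ℕ) : ℤ) by rw [← hem]; push_cast; rfl, zpow_natCast, ← hxn,
        pow_orderOf_eq_one]
    have hap : a ^ p ^ e = 1 := by
      rw [← zpow_natCast, ha, ← zpow_mul]
      rw [show (m : ℤ) * Nat.gcdB (p ^ e) m * ((p ^ e : ℕ) : ℤ)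
        = ((p ^ e : ℤ) * (m : ℤ)) * Nat.gcdB (p ^ e) m by push_cast; ring, zpow_mul, hxn', one_zpow]
    have hbm : b ^ m = 1 := by
      rw [← zpow_natCast, hb, ← zpow_mul]
      rw [show (p ^ e : ℤ) * Nat.gcdA (p ^ e) m * (m : ℤ)
        = ((p ^ e : ℤ) * (m : ℤ)) * Nat.gcdA (p ^ e) m by ring, zpow_mul, hxn', one_zpow]
    have hab : a * b = x := by
      rw [ha, hb, ← zpow_add, add_comm, hbez, zpow_one]
    have hcomm : Commute a b := Commute.zpow_zpow_self x _ _
    have haH : a ∈ H := H.zpow_mem hx _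
    have hbH : b ∈ H := H.zpow_mem hx _
    have hgz : ∀ i : ℤ, g * x ^ i * g⁻¹ ∈ H := fun i => by
      rw [← conj_zpow]; exact H.zpow_mem hgx i
    have haU : IsPGroup p (Subgroup.zpowers a) := by
      obtain ⟨k, -, hk⟩ := (Nat.dvd_prime_pow hp).1 (orderOf_dvd_of_pow_eq_one hap)
      exact IsPGroup.of_card ((Nat.card_zpowers a).trans hk)
    obtain ⟨h, hh, hhg⟩ := good_pSubgroup hH hom hpπ haU (Subgroup.zpowers_le.2 haH) (g := g) (by
      rw [MonoidHom.map_zpowers]
      exact Subgroup.zpowers_le.2 (hgz _))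
    have hhga := hhg a (Subgroup.mem_zpowers a)
    set M := Subgroup.centralizer ({a} : Set G) with hM
    have hmemM : ∀ y : G, y ∈ M ↔ a * y = y * a := fun y => Subgroup.mem_centralizer_singleton_iff.trans eq_comm
    have hdom : Dominates π (H.subgroupOf M) := by
      refine ⟨fun q hq hd => hH.1 q hq (hd.trans ?_), fun T hT => ?_⟩
      · rw [← Subgroup.card_map_of_injective M.subtype_injective, Subgroup.subgroupOf_map_subtype]
        exact Subgroup.card_dvd_of_le inf_le_left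
      have hTM : T.map M.subtype ≤ Subgroup.normalizer ((Subgroup.zpowers a : Subgroup G) : Set G) := by
        refine (Subgroup.map_subtype_le T).trans (le_trans ?_ (Subgroup.centralizer_le_normalizer _))
        intro y hy
        refine Subgroup.mem_centralizer_iff.2 fun v hv => ?_
        obtain ⟨i, rfl⟩ := Subgroup.mem_zpowers_iff.1 hv
        exact ((show Commute a y from (hmemM y).1 hy).zpow_left i).eq
      have hTπ : IsPiSubgroup π (T.map M.subtype ⊔ Subgroup.zpowers a) := isPi_sup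
        (fun q hq hd => hT q hq (by rwa [Subgroup.card_map_of_injective M.subtype_injective] at hd))
        (isPi_of_isPGroup hp hpπ haU) hTM
      obtain ⟨y, hy⟩ := hH.2 _ hTπ
      have hya : y * a * y⁻¹ ∈ H := hy (conj_mem_conj_map y (Subgroup.mem_sup_right (Subgroup.mem_zpowers a)))
      obtain ⟨k, hk, hky⟩ := good_pSubgroup hH hom hpπ haU (Subgroup.zpowers_le.2 haH) (g := y) (by
        rw [MonoidHom.map_zpowers]
        exact Subgroup.zpowers_le.2 hya)
      have hkya := hky a (Subgroup.mem_zpowers a)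
      refine ⟨⟨k⁻¹ * y, (hmemM _).2 ?_⟩, conj_map_le_iff.2 fun t ht => ?_⟩
      · calc a * (k⁻¹ * y) = k⁻¹ * (k * a * k⁻¹) * y := by group
          _ = k⁻¹ * (y * a * y⁻¹) * y := by rw [hkya]
          _ = k⁻¹ * y * a := by group
      · show k⁻¹ * y * (t : G) * (k⁻¹ * y)⁻¹ ∈ H
        have h1 : y * (t : G) * y⁻¹ ∈ H := hy (conj_mem_conj_map y (Subgroup.mem_sup_left ⟨t, ht, rfl⟩))
        rw [show k⁻¹ * y * (t : G) * (k⁻¹ * y)⁻¹ = k⁻¹ * (y * t * y⁻¹) * k by group]
        exact H.mul_mem (H.mul_mem (H.inv_mem hk) h1) hk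
    have hbM : b ∈ M := (hmemM b).2 hcomm.eq
    have hgM : h⁻¹ * g ∈ M := by
      refine (hmemM _).2 ?_
      calc a * (h⁻¹ * g) = h⁻¹ * (h * a * h⁻¹) * g := by group
        _ = h⁻¹ * (g * a * g⁻¹) * g := by rw [hhga]
        _ = h⁻¹ * g * a := by group
    have hmlt : orderOf b < n := by
      refine lt_of_le_of_lt (Nat.le_of_dvd ?_ (orderOf_dvd_of_pow_eq_one hbm)) ?_
      · exact Nat.ordCompl_pos p hnpos
      · refine Nat.div_lt_self (Nat.pos_of_ne_zero hnpos) (Nat.one_lt_pow ?_ hp.one_lt)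
        exact (hp.factorization_pos_of_dvd hnpos hpn).ne'
    obtain ⟨k, hk, hkb⟩ := ih (orderOf b) hmlt (H.subgroupOf M) hdom (homogeneous_subgroup hom M)
      ⟨b, hbM⟩ hbH (Subgroup.orderOf_mk b hbM) ⟨h⁻¹ * g, hgM⟩ (by
        show h⁻¹ * g * b * (h⁻¹ * g)⁻¹ ∈ H
        rw [show h⁻¹ * g * b * (h⁻¹ * g)⁻¹ = h⁻¹ * (g * b * g⁻¹) * h by group]
        exact H.mul_mem (H.mul_mem (H.inv_mem hh) (hgz _)) hh)
    have hkb' : (k : G) * b * (k : G)⁻¹ = h⁻¹ * g * b * (h⁻¹ * g)⁻¹ := congrArg Subtype.val hkb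
    have hka : a * (k : G) = (k : G) * a := (hmemM _).1 k.2
    refine ⟨h * k, H.mul_mem hh hk, ?_⟩
    rw [← hab]
    calc h * (k : G) * (a * b) * (h * (k : G))⁻¹
        = h * ((k : G) * a) * (k : G)⁻¹ * h⁻¹ * (h * ((k : G) * b * (k : G)⁻¹) * h⁻¹) := by group
      _ = h * (a * (k : G)) * (k : G)⁻¹ * h⁻¹ * (h * (h⁻¹ * g * b * (h⁻¹ * g)⁻¹) * h⁻¹) := by
        rw [← hka, hkb']
      _ = h * a * h⁻¹ * (g * b * g⁻¹) := by group
      _ = g * a * g⁻¹ * (g * b * g⁻¹) := by rw [hhga]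
      _ = g * (a * b) * g⁻¹ := by group

end CfsgLib.PiHomog
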